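import Cfsg.Agent.H5.Small
import Cfsg.Agent.H5.Row64
import Cfsg.Agent.SmallSimple.S1000.FrameAut
import Cfsg.Agent.Lib.NormalAbelian

/-!
# A normal subgroup of order 8 (helper5)

`Ctx T z V E`: every elementary abelian normal subgroup `U ∋ z` of the Sylow 2-subgroup `T` is in the four-group `V` or
equal to the group `E` of order 8; `C(E)` is a 2-group, `7 ∤ |C(z)|`.
`row_lf`: the members `L` of `ℒ_f(G, T)` satisfy `⟨L, T⟩ = N(E)`, `L/O₂(L) ≅ L₃(2)`, and are maximal in `ℒ(G, T)`.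
-/

set_option autoImplicit false
set_option linter.unusedSectionVars false

namespace Cfsg.Agent.H5.Eight

open Subgroup Cfsg Cfsg.Agent.QTUniq.Local

variable {G : Type*} [Group G]

/-- a perfect subgroup acts trivially on a subgroup of order at most 4 -/
theorem le_centralizer_of_card_le_four [Finite G] {L U : Subgroup G} (hp : ⁅L, L⁆ = L)
    (hLU : L ≤ normalizer (U : Set G)) (hU : Nat.card U ≤ 4) : L ≤ centralizer (U : Set G) := by
  let f : L →* MulAut U := (U.normalizerMonoidHom).comp (inclusion hLU)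
  have hs : Group.IsSolvable (MulAut U) := by
    have h1 : Nat.card (MulAut U) ≤ 24 := by
      have h2 : Nat.card (MulAut U) ≤ Nat.card (Equiv.Perm U) :=
        Nat.card_le_card_of_injective (fun e : MulAut U => (e : U ≃* U).toEquiv) (by
          intro a b h
          exact MulEquiv.ext fun x => congrArg (fun g : Equiv.Perm U => g x) h)
      have : Fintype U := Fintype.ofFinite _
      classical
      rw [Nat.card_eq_fintype_card (α := Equiv.Perm U), Fintype.card_perm, ← Nat.card_eq_fintype_card] at h2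
      exact h2.trans ((Nat.factorial_le hU).trans (by decide))
    exact Small.solvable_of_lt _ rfl (by omega)
  have hr : Group.IsSolvable f.range := inferInstance
  have hLs : ⁅f.range, f.range⁆ = f.range := by
    have h1 : ⁅(⊤ : Subgroup L), (⊤ : Subgroup L)⁆ = ⊤ := by
      apply map_injective L.subtype_injective
      rw [map_commutator, ← MonoidHom.range_eq_map, Subgroup.range_subtype, hp]
    rw [MonoidHom.range_eq_map, ← map_commutator, h1]
  have h0 : f.range = ⊥ := by
    by_contra hne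
    have : Nontrivial f.range := (nontrivial_iff_ne_bot _).2 hne
    have h2 := hr.commutator_lt_top_of_nontrivial f.range
    apply h2.ne
    apply map_injective f.range.subtype_injective
    rw [commutator_def, map_commutator, ← MonoidHom.range_eq_map, Subgroup.range_subtype, hLs]
  intro x hx
  rw [mem_centralizer_iff]
  intro y hy
  have h1 : f ⟨x, hx⟩ = 1 := by
    have : f ⟨x, hx⟩ ∈ f.range := ⟨_, rfl⟩
    rwa [h0, mem_bot] at this
  have h2 := congrArg (fun g : MulAut ↥U => ((g ⟨y, hy⟩ : ↥U) : G)) h1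
  have h3 : x * y * x⁻¹ = y := h2
  calc y * x = x * y * x⁻¹ * x := by rw [h3]
    _ = x * y := by group

/-- the hypotheses -/
structure Ctx (T : Subgroup G) (z : G) (V E : Subgroup G) : Prop where
  zz : z * z = 1
  comm : ∀ x ∈ T, x * z = z * x
  cen : ∀ a ∈ T, (∀ x ∈ T, x * a = a * x) → a = 1 ∨ a = z
  V4 : Nat.card V ≤ 4
  E8 : Nat.card E = 8
  Esq : ∀ a ∈ E, a * a = 1
  cls : ∀ U ≤ T, T ≤ normalizer (U : Set G) → (∀ a ∈ U, ∀ b ∈ U, a * b = b * a) → (∀ a ∈ U, a * a = 1) → z ∈ U →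
    U ≤ V ∨ U = E
  cE : IsPGroup 2 (centralizer (E : Set G))
  c7 : ¬ 7 ∣ Nat.card (centralizer ({z} : Set G))

section

variable [Finite G] {T : Sylow 2 G} {z : G} {V E : Subgroup G} (c : Ctx (T : Subgroup G) z V E)
include c

/-- `z ∈ R` for every nontrivial normal subgroup `R ≤ T` of `T` -/
theorem mem_of_normal {R : Subgroup G} (hR : R ≤ (T : Subgroup G)) (hn : (T : Subgroup G) ≤ normalizer (R : Set G))
    (hne : R ≠ ⊥) : z ∈ R := by
  have hn' : (R.subgroupOf (T : Subgroup G)).Normal := (normal_subgroupOf_iff_le_normalizer hR).2 hn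
  have : Fact (Nat.Prime 2) := ⟨Nat.prime_two⟩
  have hnil : Group.IsNilpotent (T : Subgroup G) := T.isPGroup'.isNilpotent
  have hne' : R.subgroupOf (T : Subgroup G) ≠ ⊥ := by
    intro h
    apply hne
    rw [subgroupOf_eq_bot] at h
    exact h.eq_bot_of_le hR
  obtain ⟨⟨y, hyR, hyc⟩, hy1⟩ := (Subgroup.ne_bot_iff_exists_ne_one).1
    (Lib.NormalAbelian.normal_inf_center_ne_bot _ hne')
  have hy1' : (y : G) ≠ 1 := fun h => hy1 (Subtype.ext (Subtype.ext h))
  have h1 := c.cen y y.2 (by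
    intro x hx
    have h2 := mem_center_iff.1 hyc ⟨x, hx⟩
    exact congrArg Subtype.val h2)
  rw [← h1.resolve_left hy1']
  exact mem_subgroupOf.1 hyR

/-- `U = Ω₁(Z(O₂(H)))` is in `V` or equal to `E` -/
theorem cases_UU {H : Subgroup G} (hTH : (T : Subgroup G) ≤ H) (hH : pCore 2 ↥H ≠ ⊥) :
    z ∈ H4.Lf.UU H ∧ H ≤ normalizer (H4.Lf.UU H : Set G) ∧ (H4.Lf.UU H ≤ V ∨ H4.Lf.UU H = E) := by
  set R : Subgroup G := (pCore 2 ↥H).map H.subtype with hR
  have hRT : R ≤ (T : Subgroup G) := map_pCore_le_sylow T hTH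
  have hHR : H ≤ normalizer (R : Set G) := le_normalizer_map_pCore 2 H
  have hRne : R ≠ ⊥ := map_pCore_ne_bot hH
  have hN : H ≤ normalizer (H4.Lf.UU H : Set G) := hHR.trans (H4.Lf.normalizer_le_omega R)
  have hz : z ∈ H4.Lf.UU H := by
    rw [H4.Lf.mem_omega]
    exact ⟨mem_of_normal c hRT (hTH.trans hHR) hRne, fun r hr => c.comm r (hRT hr), c.zz⟩
  refine ⟨hz, hN, c.cls _ ?_ (hTH.trans hN) ?_ ?_ hz⟩
  · intro x hx
    exact hRT (H4.Lf.mem_omega.1 hx).1
  · intro a ha b hb
    exact (H4.Lf.mem_omega.1 hb).2.1 a (H4.Lf.mem_omega.1 ha).1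
  · intro a ha
    exact (H4.Lf.mem_omega.1 ha).2.2

omit [Finite G] c in
/-- the action on `E` -/
noncomputable def actE (E : Subgroup G) : normalizer (E : Set G) →* MulAut E := E.normalizerMonoidHom

omit [Finite G] c in
theorem actE_ker (E : Subgroup G) :
    (actE E).ker = (centralizer (E : Set G)).subgroupOf (normalizer (E : Set G)) := by
  ext ⟨x, hx⟩
  rw [MonoidHom.mem_ker, mem_subgroupOf, mem_centralizer_iff]
  constructor
  · intro h1 y hy
    have h2 := congrArg (fun g : MulAut ↥E => ((g ⟨y, hy⟩ : ↥E) : G)) h1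
    have h3 : x * y * x⁻¹ = y := h2
    calc y * x = x * y * x⁻¹ * x := by rw [h3]
      _ = x * y := by group
  · intro h1
    ext ⟨y, hy⟩
    show x * y * x⁻¹ = y
    rw [← h1 y hy]; group

theorem card_mulAut : Nat.card (MulAut E) = 168 := by
  have hsq : ∀ x : E, x * x = 1 := fun x => Subtype.ext (c.Esq x x.2)
  exact SmallSimple.S1000.FrameAut.card_mulAut hsq c.E8

theorem ker_two : IsPGroup 2 (actE E).ker := by
  rw [actE_ker]
  exact c.cE.comap_subtype

/-- `|N(E)|` divides `|T| 21` -/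
theorem card_norm_dvd : Nat.card (normalizer (E : Set G)) ∣ Nat.card (T : Subgroup G) * 21 := by
  have : Fact (Nat.Prime 2) := ⟨Nat.prime_two⟩
  have h1 := (actE E).ker.card_mul_index
  rw [Subgroup.index_ker] at h1
  have h2 : Nat.card (actE E).range ∣ 168 := by
    rw [← card_mulAut c]
    exact card_subgroup_dvd_card _
  obtain ⟨n, hn⟩ := IsPGroup.iff_card.1 (ker_two c)
  have h3 : Nat.card (normalizer (E : Set G)) ∣ 2 ^ (n + 3) * 21 := by
    rw [← h1, hn, pow_add, mul_assoc]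
    exact mul_dvd_mul_left _ h2
  -- the 2-part
  set N := Nat.card (normalizer (E : Set G)) with hNdef
  have hN0 : N ≠ 0 := Nat.card_pos.ne'
  obtain ⟨k, m, hm, hkm⟩ := Nat.exists_eq_two_pow_mul_odd hN0
  rw [hkm] at h3 ⊢
  refine Nat.mul_dvd_mul ?_ ?_
  · have h4 : 2 ^ k ∣ Nat.card G := (Dvd.intro _ hkm.symm).trans (card_subgroup_dvd_card _)
    have h5 := T.card_eq_multiplicity
    rw [h5]
    exact pow_dvd_pow 2 ((Nat.prime_two.pow_dvd_iff_le_factorization Nat.card_pos.ne').1 h4)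
  · have h6 : m ∣ 2 ^ (n + 3) * 21 := (Dvd.intro_left _ rfl).trans h3
    exact (Nat.Coprime.dvd_mul_left (Nat.Coprime.pow_right _ (Nat.coprime_two_right.2 hm))).1 h6

/-- **`ℒ(G, T)` in `N(E)`** -/
theorem row_nor {L : Subgroup G} (hL : L ∈ calL (T : Subgroup G)) (hM : L ⊔ T ≤ normalizer (E : Set G)) :
    L ⊔ T = normalizer (E : Set G) ∧ L ⊔ T ≤ normalizer (L : Set G) ∧ Nat.card (L ⧸ pCore 2 L) = 168 ∧
      Nonempty ((L ⧸ pCore 2 L) ≃* Matrix.ProjectiveSpecialLinearGroup (Fin 3) (ZMod 2)) ∧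
      L.subgroupOf (L ⊔ T) = perfectCore ↥(L ⊔ T) := by
  have : Fact (Nat.Prime 2) := ⟨Nat.prime_two⟩
  obtain ⟨h3, h4, h5, h6⟩ := Small.row168 T hL (le_sup_right.trans hM) (le_sup_left.trans hM) (actE E) (ker_two c)
    (by rw [← card_mulAut c]; exact card_subgroup_dvd_card _)
  refine ⟨?_, h3, h4, h5, h6⟩
  apply eq_of_le_of_card_ge hM
  have h7 : 168 ∣ Nat.card ↥(L ⊔ (T : Subgroup G)) := by
    have h8 := Top.card_eq_mul (X := L)
    rw [h4] at h8
    exact (Dvd.intro _ h8.symm).trans (card_dvd_of_le le_sup_left)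
  have h9 : Nat.card (T : Subgroup G) ∣ Nat.card ↥(L ⊔ (T : Subgroup G)) := card_dvd_of_le le_sup_right
  have h10 : Nat.card (T : Subgroup G) * 21 ∣ Nat.card ↥(L ⊔ (T : Subgroup G)) := by
    refine Nat.Coprime.mul_dvd_of_dvd_of_dvd ?_ h9 ((by norm_num : 21 ∣ 168).trans h7)
    rw [T.card_eq_multiplicity]
    exact Nat.Coprime.pow_left _ (by norm_num)
  exact Nat.le_of_dvd Nat.card_pos ((card_norm_dvd c).trans h10)

/-- **`ℒ_f(G, T)`** -/
theorem row_lf (hE : IsOfEvenCharacteristic G) {L : Subgroup G} (hL : L ∈ calLf (T : Subgroup G)) :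
    L ⊔ T = normalizer (E : Set G) ∧ L ⊔ T ≤ normalizer (L : Set G) ∧ Nat.card (L ⧸ pCore 2 L) = 168 ∧
      Nonempty ((L ⧸ pCore 2 L) ≃* Matrix.ProjectiveSpecialLinearGroup (Fin 3) (ZMod 2)) ∧
      L ∈ calLfMax (T : Subgroup G) := by
  have hTH : (T : Subgroup G) ≤ L ⊔ T := le_sup_right
  obtain ⟨hz, hN, hU⟩ := cases_UU c hTH (H4.Lf.oTwo_ne hL.1)
  have hnc := H4.Lf.not_le_centralizer le_sup_left (H4.Lf.subnormal hL.1) (H4.Lf.odd_gen hL)
    (charTwo_of_over hE T hTH (H4.Lf.oTwo_ne hL.1)) hL.2.2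
  have hUE : H4.Lf.UU (L ⊔ (T : Subgroup G)) = E := by
    refine hU.resolve_left fun h => hnc ?_
    exact le_centralizer_of_card_le_four (H4.Lf.perfect hL.1) (le_sup_left.trans hN)
      ((Nat.card_le_card_of_injective _ (inclusion_injective h)).trans c.V4)
  obtain ⟨h1, h2, h3, h4, h5⟩ := row_nor c hL.1 (hUE ▸ hN)
  refine ⟨h1, h2, h3, h4, ⟨hL.1, fun M hMc hLM => ?_⟩, hL.2⟩
  have hsup : L ⊔ (T : Subgroup G) ≤ M ⊔ T := sup_le_sup_right hLM T
  have hTM : (T : Subgroup G) ≤ M ⊔ T := le_sup_right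
  obtain ⟨hzM, hNM, hUM⟩ := cases_UU c hTM (H4.Lf.oTwo_ne hMc)
  have hUME : H4.Lf.UU (M ⊔ (T : Subgroup G)) = E := by
    refine hUM.resolve_left fun h => ?_
    have h6 : L ≤ centralizer (H4.Lf.UU (M ⊔ (T : Subgroup G)) : Set G) :=
      le_centralizer_of_card_le_four (H4.Lf.perfect hL.1) ((le_sup_left.trans hsup).trans hNM)
        ((Nat.card_le_card_of_injective _ (inclusion_injective h)).trans c.V4)
    have h7 : L ⊔ (T : Subgroup G) ≤ centralizer ({z} : Set G) := by
      refine sup_le ?_ ?_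
      · intro x hx
        exact mem_centralizer_singleton_iff.2 ((mem_centralizer_iff.1 (h6 hx)) z hzM).symm
      · intro x hx
        exact mem_centralizer_singleton_iff.2 (c.comm x hx)
    apply c.c7
    have h8 := Top.card_eq_mul (X := L)
    rw [h3] at h8
    have h9 : 168 ∣ Nat.card ↥(L ⊔ (T : Subgroup G)) := (Dvd.intro _ h8.symm).trans (card_dvd_of_le le_sup_left)
    exact ((by norm_num : 7 ∣ 168).trans h9).trans (card_dvd_of_le h7)
  obtain ⟨k1, -, -, -, k5⟩ := row_nor c hMc (hUME ▸ hNM)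
  have e1 : (perfectCore ↥(L ⊔ (T : Subgroup G))).map (L ⊔ (T : Subgroup G)).subtype = L := by
    rw [← h5, subgroupOf_map_subtype, inf_eq_left.2 le_sup_left]
  have e2 : (perfectCore ↥(M ⊔ (T : Subgroup G))).map (M ⊔ (T : Subgroup G)).subtype = M := by
    rw [← k5, subgroupOf_map_subtype, inf_eq_left.2 le_sup_left]
  rw [← e1, ← e2, k1, h1]

end

/-! ### conjugates -/

theorem Ctx.conj {T : Subgroup G} {z : G} {V E : Subgroup G} (c : Ctx T z V E) (g : G) :
    Ctx (T.map (MulAut.conj g).toMonoidHom) (g * z * g⁻¹) (V.map (MulAut.conj g).toMonoidHom)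
      (E.map (MulAut.conj g).toMonoidHom) := by
  have mem : ∀ (A : Subgroup G) (x : G), x ∈ A.map (MulAut.conj g).toMonoidHom ↔ g⁻¹ * x * g ∈ A := by
    intro A x
    constructor
    · rintro ⟨a, ha, rfl⟩
      have e : g⁻¹ * (MulAut.conj g).toMonoidHom a * g = a := by
        show g⁻¹ * (g * a * g⁻¹) * g = a
        group
      rw [e]; exact ha
    · intro h
      exact ⟨_, h, by show g * (g⁻¹ * x * g) * g⁻¹ = x; group⟩
  have cardeq : ∀ A : Subgroup G, Nat.card (A.map (MulAut.conj g).toMonoidHom) = Nat.card A := fun A =>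
    (Nat.card_congr (A.equivMapOfInjective _ (MulAut.conj g).injective).toEquiv).symm
  have hcen : ∀ A : Subgroup G, centralizer ((A.map (MulAut.conj g).toMonoidHom : Subgroup G) : Set G) =
      (centralizer (A : Set G)).map (MulAut.conj g).toMonoidHom := by
    intro A
    ext x
    rw [mem, mem_centralizer_iff, mem_centralizer_iff]
    constructor
    · intro h a ha
      have h1 := h (g * a * g⁻¹) ⟨a, ha, rfl⟩
      calc a * (g⁻¹ * x * g) = g⁻¹ * ((g * a * g⁻¹) * x) * g := by group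
        _ = g⁻¹ * (x * (g * a * g⁻¹)) * g := by rw [h1]
        _ = _ := by group
    · rintro h _ ⟨a, ha, rfl⟩
      show g * a * g⁻¹ * x = x * (g * a * g⁻¹)
      calc g * a * g⁻¹ * x = g * (a * (g⁻¹ * x * g)) * g⁻¹ := by group
        _ = g * ((g⁻¹ * x * g) * a) * g⁻¹ := by rw [h a ha]
        _ = _ := by group
  refine
    { zz := ?_
      comm := ?_
      cen := ?_
      V4 := by rw [cardeq]; exact c.V4
      E8 := by rw [cardeq]; exact c.E8
      Esq := ?_
      cls := ?_
      cE := by rw [hcen]; exact c.cE.map _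
      c7 := ?_ }
  · calc g * z * g⁻¹ * (g * z * g⁻¹) = g * (z * z) * g⁻¹ := by group
      _ = 1 := by rw [c.zz]; group
  · rintro _ ⟨x, hx, rfl⟩
    show g * x * g⁻¹ * (g * z * g⁻¹) = g * z * g⁻¹ * (g * x * g⁻¹)
    calc g * x * g⁻¹ * (g * z * g⁻¹) = g * (x * z) * g⁻¹ := by group
      _ = g * (z * x) * g⁻¹ := by rw [c.comm x hx]
      _ = _ := by group
  · rintro _ ⟨a, ha, rfl⟩ h
    have h1 := c.cen a ha (by
      intro x hx
      have h2 : g * x * g⁻¹ * (g * a * g⁻¹) = g * a * g⁻¹ * (g * x * g⁻¹) := h _ ⟨x, hx, rfl⟩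
      calc x * a = g⁻¹ * (g * x * g⁻¹ * (g * a * g⁻¹)) * g := by group
        _ = g⁻¹ * (g * a * g⁻¹ * (g * x * g⁻¹)) * g := by rw [h2]
        _ = _ := by group)
    rcases h1 with rfl | rfl
    · left
      show g * 1 * g⁻¹ = 1
      group
    · right; rfl
  · rintro _ ⟨a, ha, rfl⟩
    show g * a * g⁻¹ * (g * a * g⁻¹) = 1
    calc g * a * g⁻¹ * (g * a * g⁻¹) = g * (a * a) * g⁻¹ := by group
      _ = 1 := by rw [c.Esq a ha]; group
  · intro U hUT hTU hab hsq hz
    -- pull back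
    set U' : Subgroup G := U.map (MulAut.conj g⁻¹).toMonoidHom with hU'
    have hm : ∀ x, x ∈ U' ↔ g * x * g⁻¹ ∈ U := by
      intro x
      rw [hU']
      constructor
      · rintro ⟨a, ha, rfl⟩
        have e : g * (MulAut.conj g⁻¹).toMonoidHom a * g⁻¹ = a := by
          show g * (g⁻¹ * a * g⁻¹⁻¹) * g⁻¹ = a
          group
        rw [e]; exact ha
      · intro h
        exact ⟨_, h, by show g⁻¹ * (g * x * g⁻¹) * g⁻¹⁻¹ = x; group⟩
    have h1 := c.cls U' (by
        intro x hx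
        have := hUT ((hm x).1 hx)
        rw [mem] at this
        have e : g⁻¹ * (g * x * g⁻¹) * g = x := by group
        rwa [e] at this) (by
        intro t ht
        rw [mem_normalizer_iff]
        intro x
        have ht' : g * t * g⁻¹ ∈ T.map (MulAut.conj g).toMonoidHom := ⟨t, ht, rfl⟩
        have h2 := (mem_normalizer_iff.1 (hTU ht')) (g * x * g⁻¹)
        rw [hm, hm, h2]
        have e : g * t * g⁻¹ * (g * x * g⁻¹) * (g * t * g⁻¹)⁻¹ = g * (t * x * t⁻¹) * g⁻¹ := by group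
        rw [e]) (by
        intro a ha b hb
        have h2 := hab _ ((hm a).1 ha) _ ((hm b).1 hb)
        calc a * b = g⁻¹ * (g * a * g⁻¹ * (g * b * g⁻¹)) * g := by group
          _ = g⁻¹ * (g * b * g⁻¹ * (g * a * g⁻¹)) * g := by rw [h2]
          _ = _ := by group) (by
        intro a ha
        have h2 := hsq _ ((hm a).1 ha)
        calc a * a = g⁻¹ * (g * a * g⁻¹ * (g * a * g⁻¹)) * g := by group
          _ = 1 := by rw [h2]; group) ((hm z).2 hz)
    rcases h1 with h1 | h1
    · left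
      intro x hx
      rw [mem]
      apply h1
      rw [hm]
      have e : g * (g⁻¹ * x * g) * g⁻¹ = x := by group
      rwa [e]
    · right
      ext x
      rw [mem, ← h1, hm]
      have e : g * (g⁻¹ * x * g) * g⁻¹ = x := by group
      rw [e]
  · intro h7
    apply c.c7
    have e : centralizer ({g * z * g⁻¹} : Set G) = (centralizer ({z} : Set G)).map (MulAut.conj g).toMonoidHom := by
      ext x
      rw [mem, mem_centralizer_singleton_iff, mem_centralizer_singleton_iff]
      constructor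
      · intro h
        calc g⁻¹ * x * g * z = g⁻¹ * (x * (g * z * g⁻¹)) * g := by group
          _ = g⁻¹ * ((g * z * g⁻¹) * x) * g := by rw [h]
          _ = _ := by group
      · intro h
        calc x * (g * z * g⁻¹) = g * ((g⁻¹ * x * g) * z) * g⁻¹ := by group
          _ = g * (z * (g⁻¹ * x * g)) * g⁻¹ := by rw [h]
          _ = _ := by group
    rwa [e, cardeq] at h7

end Cfsg.Agent.H5.Eight
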