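import Cfsg.Agent.H5.Row64
import Cfsg.Agent.H5.Ru.Row
import Cfsg.Agent.H5.HS.Row
import Cfsg.Agent.H4.RowL43
import Cfsg.Agent.H4.Rows1
import Cfsg.Agent.H4.Rows2
import Cfsg.Agent.S1059
import Cfsg.Agent.S0280
import Cfsg.Agent.S0256

/-!
# The residual case of the quasithin analysis: assembly (helper5)

`Rows G`: `G` is one of the groups of the residual case with `ℒ_f(G, T) ≠ ∅`, together with the description of the members of
`ℒ_f(G, T)`; `main`: every group on the list in the residual case has `ℒ_f(G, T) = ∅` for all `T` or satisfies `Rows`.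
The rows `Sp₆(2)`, `U₄(3)`, `³D₄(2)` and the Tits group are hypotheses.
-/

set_option autoImplicit false

namespace Cfsg.Agent.H5.Resid

open Subgroup Cfsg Cfsg.Agent.H4.LfTrans

universe u

/-- `L/O₂(L) ≅ L₃(2)` -/
def IsL3 {G : Type u} [Group G] (L : Subgroup G) : Prop :=
  Nonempty ((↥L ⧸ pCore 2 ↥L) ≃* Matrix.ProjectiveSpecialLinearGroup (Fin 3) (ZMod 2))

/-- `L/O₂(L) ≅ A_n` -/
def IsAlt {G : Type u} [Group G] (n : ℕ) (L : Subgroup G) : Prop :=
  Nonempty ((↥L ⧸ pCore 2 ↥L) ≃* alternatingGroup (Fin n))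

/-- every member of `ℒ_f(G, T)` is `T`-invariant, in `ℒ_f*(G, T)`, and has the property `P` -/
def LfRow (G : Type u) [Group G] (P : Subgroup G → Prop) : Prop :=
  ∀ (T : Sylow 2 G), ∀ L ∈ calLf (T : Subgroup G), (T : Subgroup G) ≤ normalizer (L : Set G) ∧
    L ∈ calLfMax (T : Subgroup G) ∧ P L

def Sp62 (G : Type u) [Group G] : Prop :=
  ∃ (F : Type) (_ : Field F) (_ : Fintype F), Fintype.card F = 2 ∧ Nonempty (G ≃* Cfsg.PSp 3 F)

def U43 (G : Type u) [Group G] : Prop :=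
  ∃ (F : Type) (_ : Field F) (_ : Fintype F), Fintype.card F = 9 ∧ Nonempty (G ≃* Cfsg.PSU 4 F 3)

def U42 (G : Type u) [Group G] : Prop :=
  ∃ (F : Type) (_ : Field F) (_ : Fintype F), Fintype.card F = 4 ∧ Nonempty (G ≃* Cfsg.PSU 4 F 2)

def L43 (G : Type u) [Group G] : Prop :=
  ∃ (F : Type) (_ : Field F) (_ : Fintype F), Fintype.card F = 3 ∧
    Nonempty (G ≃* Matrix.ProjectiveSpecialLinearGroup (Fin 4) F)

def G23 (G : Type u) [Group G] : Prop :=
  ∃ (F : Type) (_ : Field F) (_ : Fintype F), Fintype.card F = 3 ∧ Nonempty (G ≃* ↥(Cfsg.Lie.chevG2.group F))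

def D42 (G : Type u) [Group G] : Prop :=
  ∃ (K : Type) (_ : Field K) (_ : Fintype K), Fintype.card K = 8 ∧ Nonempty (G ≃* ↥(Lie.twistedD4 K 2))

/-- the three conclusions -/
def Conc {G : Type u} [Group G] (L : Subgroup G) : Prop :=
  (IsAlt 6 L ∧ (Sp62 G ∨ U43 G)) ∨ (IsAlt 5 L ∧ (U42 G ∨ L43 G)) ∨
    (IsL3 L ∧ (Sp62 G ∨ G23 G ∨ Spor.IsoHS G ∨ Spor.IsoRu G))

theorem LfRow.mono {G : Type u} [Group G] {P Q : Subgroup G → Prop} (h : LfRow G P) (hPQ : ∀ L, P L → Q L) :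
    LfRow G Q := fun T L hL => by
  obtain ⟨h1, h2, h3⟩ := h T L hL
  exact ⟨h1, h2, hPQ L h3⟩

theorem LfRow.of_noLf {G : Type u} [Group G] {P : Subgroup G → Prop} (h : NoLf G) : LfRow G P := by
  intro T L hL
  rw [h T] at hL
  exact hL.elim

section rows

variable {G : Type u} [Group G] [Finite G]

theorem card_u42 {F : Type*} [Field F] [Fintype F] (hF : Fintype.card F = 4) : Nat.card (Cfsg.PSU 4 F 2) = 25920 := by
  have h := S0280.result (F := F) (q := 2) (by rw [hF]; norm_num) 4 (by norm_num)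
  norm_num [Finset.prod_range_succ, Nat.even_iff] at h
  omega

theorem card_g23 {F : Type*} [Field F] [Fintype F] (hF : Fintype.card F = 3) :
    Nat.card ↥(Cfsg.Lie.chevG2.group F) = 4245696 := by
  rw [S1059.result hF]; norm_num

theorem row_u42 (hFT : Top.FT.{u}) (hE : IsOfEvenCharacteristic G) {F : Type*} [Field F] [Fintype F]
    (hF : Fintype.card F = 4) (e : G ≃* Cfsg.PSU 4 F 2) : LfRow G (IsAlt 5) := by
  have hc : Nat.card G = 25920 := (Nat.card_congr e.toEquiv).trans (card_u42 hF)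
  have h128 : ¬ 128 ∣ Nat.card G := by rw [hc]; norm_num
  intro T L hL
  obtain ⟨h1, h2⟩ := Row64.row64 hFT hE h128 T hL.1
  refine ⟨h1.trans le_normalizer, ⟨Row64.row64_max hFT hE h128 T hL.1, hL.2⟩, ?_⟩
  rcases h2 with ⟨-, h2, -⟩ | ⟨-, -, h2⟩
  · exfalso
    have h3 := Top.card_eq_mul (X := L)
    rw [h2] at h3
    have h4 : 168 ∣ Nat.card G := (Dvd.intro _ h3.symm).trans (card_subgroup_dvd_card L)
    rw [hc] at h4
    norm_num at h4
  · exact h2

theorem row_g23 (hFT : Top.FT.{u}) (hE : IsOfEvenCharacteristic G) {F : Type*} [Field F] [Fintype F]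
    (hF : Fintype.card F = 3) (e : G ≃* ↥(Cfsg.Lie.chevG2.group F)) : LfRow G IsL3 := by
  have hc : Nat.card G = 4245696 := (Nat.card_congr e.toEquiv).trans (card_g23 hF)
  have h128 : ¬ 128 ∣ Nat.card G := by rw [hc]; norm_num
  intro T L hL
  obtain ⟨h1, h2⟩ := Row64.row64 hFT hE h128 T hL.1
  refine ⟨h1.trans le_normalizer, ⟨Row64.row64_max hFT hE h128 T hL.1, hL.2⟩, ?_⟩
  rcases h2 with ⟨-, -, h2⟩ | ⟨-, h2, -⟩
  · exact h2
  · exfalso
    have h3 := Top.card_eq_mul (X := L)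
    rw [h2] at h3
    have h4 : 60 ∣ Nat.card G := (Dvd.intro _ h3.symm).trans (card_subgroup_dvd_card L)
    rw [hc] at h4
    norm_num at h4

theorem row_l43 (hE : IsOfEvenCharacteristic G) {F : Type*} [Field F] [Fintype F]
    (hF : Fintype.card F = 3) (e : G ≃* Matrix.ProjectiveSpecialLinearGroup (Fin 4) F) : LfRow G (IsAlt 5) := by
  intro T L hL
  obtain ⟨h1, h2, h3, -⟩ := H4.RowL43.l43 hE hF e T L hL
  exact ⟨h1, h2, h3⟩

theorem row_hs (hE : IsOfEvenCharacteristic G) (h : Spor.IsoHS G) : LfRow G IsL3 := by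
  intro T L hL
  obtain ⟨h1, h2, h3⟩ := HS.Row.row_lf h hE T hL
  exact ⟨h1, h3, h2⟩

theorem row_ru (hE : IsOfEvenCharacteristic G) (h : Spor.IsoRu G) : LfRow G IsL3 := by
  intro T L hL
  obtain ⟨h1, h2, h3⟩ := Ru.Row.row_lf h hE T hL
  exact ⟨h1, h3, h2⟩

end rows

theorem odd_of_neighbour {p : ℕ} (h : IsTwoPowerNeighbourPrime p) : Odd p := by
  obtain ⟨hp, ⟨k, hk, rfl⟩ | ⟨k, hk⟩⟩ := h
  · exact (Nat.even_pow.2 ⟨even_two, by omega⟩).add_one
  · rcases hp.eq_two_or_odd' with rfl | h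
    · exfalso
      match k, hk with
      | 0, h => norm_num at h
      | 1, h => norm_num at h
      | k + 2, h =>
        rw [pow_add] at h
        omega
    · exact h

/-- the rows which are proved in other files -/
structure Hyp (G : Type u) [Group G] [Finite G] : Prop where
  sp62 : Sp62 G → LfRow G (fun L => IsAlt 6 L ∨ IsL3 L)
  u43 : U43 G → LfRow G (IsAlt 6)
  d42 : D42 G → NoLf G
  tits : Lie.IsoTits G → NoLf G

/-- **The residual case.** -/
theorem main {G : Type u} [Group G] [Finite G] (hFT : Top.FT.{u}) (hE : IsOfEvenCharacteristic G)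
    (hl : IsOnQTKEList G) (hR : InResidualCase G) (H : Hyp G) : LfRow G Conc := by
  obtain ⟨r1, r2, r3, r4, r5⟩ := hR
  rcases hl with h | h | h | h | h
  · rcases h with h | ⟨F, _, _, hF, h | ⟨h4, h⟩ | ⟨h4, h⟩⟩ | ⟨F, _, _, n, hn, hF, h⟩ | ⟨F, _, _, hF, h⟩ |
      ⟨K, _, _, n, hn, hK, h⟩ | h | h
    · exact .of_noLf (H4.Rows1.bender hFT hE h)
    · by_cases h4 : 4 ≤ Fintype.card F
      · exact (r1 (Or.inl ⟨F, _, _, hF, h4, Or.inl h⟩)).elim
      · obtain ⟨e⟩ := h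
        have h2 : Fintype.card F = 2 := by
          obtain ⟨m, -, hm⟩ := FiniteField.card F 2
          have h5 : (m : ℕ) ≠ 0 := m.ne_zero
          rcases Nat.lt_or_ge (m : ℕ) 2 with h6 | h6
          · rw [hm, show (m : ℕ) = 1 by omega, pow_one]
          · exfalso
            apply h4
            rw [hm]
            calc 4 = 2 ^ 2 := by norm_num
              _ ≤ 2 ^ (m : ℕ) := Nat.pow_le_pow_right (by norm_num) h6
        exact .of_noLf (H4.Rows2.psl3_two h2 e)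
    · exact (r1 (Or.inl ⟨F, _, _, hF, h4, Or.inr (Or.inl h)⟩)).elim
    · exact (r1 (Or.inl ⟨F, _, _, hF, h4, Or.inr (Or.inr h)⟩)).elim
    · rcases Nat.lt_or_ge n 2 with h6 | h6
      · obtain rfl : n = 1 := by omega
        obtain ⟨e⟩ := h
        exact (row_u42 hFT hE (by rw [hF]; norm_num) e).mono fun L hL =>
          Or.inr (Or.inl ⟨hL, Or.inl ⟨F, _, _, by rw [hF]; norm_num, ⟨e⟩⟩⟩)
      · exact (r1 (Or.inr (Or.inl ⟨F, _, _, n, h6, hF, h⟩))).elim
    · exact (r1 (Or.inr (Or.inr (Or.inl ⟨F, _, _, hF, h⟩)))).elim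
    · rcases Nat.lt_or_ge n 2 with h6 | h6
      · obtain rfl : n = 1 := by omega
        exact .of_noLf (H.d42 ⟨K, _, _, by rw [hK]; norm_num, h⟩)
      · exact (r1 (Or.inr (Or.inr (Or.inr (Or.inl ⟨K, _, _, n, h6, hK, h⟩))))).elim
    · exact (r1 (Or.inr (Or.inr (Or.inr (Or.inr h))))).elim
    · exact .of_noLf (H.tits h)
  · obtain ⟨F, _, _, hF, h | h | h⟩ := h
    · exact (r3 ⟨F, _, _, hF, Or.inl h⟩).elim
    · exact (r3 ⟨F, _, _, hF, Or.inr h⟩).elim
    · have h' : Sp62 G := ⟨F, _, _, hF, h⟩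
      exact (H.sp62 h').mono fun L hL => hL.elim (fun hL => Or.inl ⟨hL, Or.inl h'⟩)
        (fun hL => Or.inr (Or.inr ⟨hL, Or.inl h'⟩))
  · rcases h with ⟨⟨e⟩⟩ | ⟨⟨e⟩⟩ | ⟨⟨e⟩⟩ | h
    · exact .of_noLf (H4.Rows1.alt_five e)
    · exact .of_noLf (H4.Rows1.alt_six e)
    · obtain ⟨e'⟩ := S0256.result (F := ZMod 2) (by rw [ZMod.card])
      exact (r3 ⟨ZMod 2, inferInstance, inferInstance, by rw [ZMod.card], Or.inl ⟨e.trans e'.symm⟩⟩).elim
    · exact (r4 h).elim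
  · rcases h with ⟨F, _, _, hF, ⟨e⟩⟩ | ⟨F, _, _, hF, ⟨⟨e⟩⟩ | ⟨⟨e⟩⟩ | ⟨⟨e⟩⟩⟩ | ⟨F, _, _, hF, ⟨⟨e⟩⟩ | h⟩
    · exact .of_noLf (H4.Rows1.psl2_odd F (odd_of_neighbour hF) e)
    · exact .of_noLf (H4.Rows1.psl3_odd F (by rw [hF]; decide) e)
    · exact (row_l43 hE hF e).mono fun L hL => Or.inr (Or.inl ⟨hL, Or.inr ⟨F, _, _, hF, ⟨e⟩⟩⟩)
    · exact (row_g23 hFT hE hF e).mono fun L hL =>
        Or.inr (Or.inr ⟨hL, Or.inr (Or.inl ⟨F, _, _, hF, ⟨e⟩⟩)⟩)
    · exact .of_noLf (H4.Rows1.psu3_odd F (q := 3) (by rw [hF]; norm_num) (by decide) e)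
    · have h' : U43 G := ⟨F, _, _, hF, h⟩
      exact (H.u43 h').mono fun L hL => Or.inl ⟨hL, Or.inr h'⟩
  · rcases h with h | h | h | h | h | h | h | h | h | h | h
    · exact .of_noLf (H4.Rows1.m11 h)
    · exact .of_noLf (H4.Rows1.m12 h)
    · exact (r5 (Or.inl h)).elim
    · exact (r5 (Or.inr (Or.inl h))).elim
    · exact (r5 (Or.inr (Or.inr (Or.inl h)))).elim
    · exact .of_noLf (H4.Rows2.j2 hE h)
    · exact .of_noLf (H4.Rows2.j3 hE h)
    · exact (r5 (Or.inr (Or.inr (Or.inr (Or.inr h))))).elim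
    · exact (row_hs hE h).mono fun L hL => Or.inr (Or.inr ⟨hL, Or.inr (Or.inr (Or.inl h))⟩)
    · exact (r5 (Or.inr (Or.inr (Or.inr (Or.inl h))))).elim
    · exact (row_ru hE h).mono fun L hL => Or.inr (Or.inr ⟨hL, Or.inr (Or.inr (Or.inr h))⟩)

end Cfsg.Agent.H5.Resid
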