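import Cfsg.Agent.H5.Resid
import Cfsg.Agent.S0249

/-!
# The residual case: the conclusions of S1841, S1842, S1843 (helper5)
-/

set_option autoImplicit false

namespace Cfsg.Agent.H5.ResidEnd

open Subgroup Cfsg Cfsg.Agent.H5.Resid

universe u

/-- a simple group whose order is not a prime has trivial centre -/
theorem center_eq_bot {X : Type*} [Group X] [Finite X] [hs : IsSimpleGroup X] (hp : ¬ (Nat.card X).Prime) :
    Subgroup.center X = ⊥ := by
  rcases (inferInstance : (Subgroup.center X).Normal).eq_bot_or_eq_top with h | h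
  · exact h
  · exfalso
    let _ : CommGroup X := Group.commGroupOfCenterEqTop h
    exact hp IsSimpleGroup.prime_card

theorem card_alt_six : Nat.card (alternatingGroup (Fin 6)) = 360 := by
  have h := nat_card_alternatingGroup (α := Fin 6)
  rw [h, Nat.card_fin, show Nat.factorial 6 = 720 by rfl]

theorem card_alt_five : Nat.card (alternatingGroup (Fin 5)) = 60 := by
  have h := nat_card_alternatingGroup (α := Fin 5)
  rw [h, Nat.card_fin, show Nat.factorial 5 = 120 by rfl]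

/-- `O_{2,Z}(L) = O₂(L)` if `L/O₂(L)` has trivial centre -/
theorem twoZCore_eq {L : Type u} [Group L] (h : Subgroup.center (L ⧸ pCore 2 L) = ⊥) : twoZCore L = pCore 2 L := by
  unfold twoZCore
  rw [h, MonoidHom.comap_bot, QuotientGroup.ker_mk']

/-- `L/O_{2,Z}(L) ≅ L/O₂(L)` if `L/O₂(L)` is simple of composite order -/
theorem quot_equiv {L : Type u} [Group L] {Q : Type*} [Group Q] [Finite Q] [IsSimpleGroup Q]
    (hp : ¬ (Nat.card Q).Prime) (e : (L ⧸ pCore 2 L) ≃* Q) : Nonempty ((L ⧸ twoZCore L) ≃* Q) := by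
  have : Finite (L ⧸ pCore 2 L) := Finite.of_equiv Q e.toEquiv.symm
  have : IsSimpleGroup (L ⧸ pCore 2 L) := e.isSimpleGroup
  have h := twoZCore_eq (L := L) (center_eq_bot (by rwa [Nat.card_congr e.toEquiv]))
  exact ⟨(QuotientGroup.quotientMulEquivOfEq h).trans e⟩

theorem alt_six {G : Type u} [Group G] {L : Subgroup G} (h : IsAlt 6 L) :
    Nonempty ((↥L ⧸ twoZCore ↥L) ≃* ↥(alternatingGroup (Fin 6))) := by
  obtain ⟨e⟩ := h
  have : IsSimpleGroup (alternatingGroup (Fin 6)) := alternatingGroup.isSimpleGroup (by simp)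
  exact quot_equiv (by rw [card_alt_six]; norm_num) e

theorem alt_five {G : Type u} [Group G] {L : Subgroup G} (h : IsAlt 5 L) :
    Nonempty ((↥L ⧸ twoZCore ↥L) ≃* ↥(alternatingGroup (Fin 5))) := by
  obtain ⟨e⟩ := h
  have : IsSimpleGroup (alternatingGroup (Fin 5)) := alternatingGroup.isSimpleGroup (by simp)
  exact quot_equiv (by rw [card_alt_five]; norm_num) e

theorem card_l3 : Nat.card (Matrix.ProjectiveSpecialLinearGroup (Fin 3) (ZMod 2)) = 168 := by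
  have h := S0243.result (F := ZMod 2) rfl 3 (by norm_num)
  rw [ZMod.card, Fin.prod_univ_three] at h
  norm_num at h
  rw [Nat.card_eq_fintype_card, h]

theorem l3 {G : Type u} [Group G] [Finite G] {L : Subgroup G} (h : IsL3 L) :
    Nonempty ((↥L ⧸ twoZCore ↥L) ≃* Matrix.ProjectiveSpecialLinearGroup (Fin 3) (ZMod 2)) := by
  obtain ⟨e⟩ := h
  have : Finite (Matrix.ProjectiveSpecialLinearGroup (Fin 3) (ZMod 2)) := Finite.of_equiv _ e.toEquiv
  have : IsSimpleGroup (Matrix.ProjectiveSpecialLinearGroup (Fin 3) (ZMod 2)) :=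
    S0249.result 3 le_rfl
  exact quot_equiv (by rw [card_l3]; norm_num) e

section

variable {G : Type u} [Group G] [Finite G]

/-- **S1842** -/
theorem s1842 (hFT : Top.FT.{u}) (hE : IsOfEvenCharacteristic G) (hl : IsOnQTKEList G) (hR : InResidualCase G)
    (H : Hyp G) (T : Sylow 2 G) (L : Subgroup G) (hL : L ∈ calLf (T : Subgroup G)) :
    (Nonempty ((↥L ⧸ Cfsg.twoZCore ↥L) ≃* ↥(alternatingGroup (Fin 6))) ∧
      ((∃ (F : Type) (_ : Field F) (_ : Fintype F), Fintype.card F = 2 ∧ Nonempty (G ≃* Cfsg.PSp 3 F)) ∨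
        (∃ (F : Type) (_ : Field F) (_ : Fintype F), Fintype.card F = 9 ∧ Nonempty (G ≃* Cfsg.PSU 4 F 3)))) ∨
    (Nonempty ((↥L ⧸ Cfsg.pCore 2 ↥L) ≃* ↥(alternatingGroup (Fin 5))) ∧
      ((∃ (F : Type) (_ : Field F) (_ : Fintype F), Fintype.card F = 4 ∧ Nonempty (G ≃* Cfsg.PSU 4 F 2)) ∨
        (∃ (F : Type) (_ : Field F) (_ : Fintype F), Fintype.card F = 3 ∧
          Nonempty (G ≃* Matrix.ProjectiveSpecialLinearGroup (Fin 4) F)))) ∨
    ((∃ (F : Type) (_ : Field F) (_ : Fintype F), Fintype.card F = 2 ∧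
        Nonempty ((↥L ⧸ Cfsg.pCore 2 ↥L) ≃* Matrix.ProjectiveSpecialLinearGroup (Fin 3) F)) ∧
      ((∃ (F : Type) (_ : Field F) (_ : Fintype F), Fintype.card F = 2 ∧ Nonempty (G ≃* Cfsg.PSp 3 F)) ∨
        (∃ (F : Type) (_ : Field F) (_ : Fintype F), Fintype.card F = 3 ∧
          Nonempty (G ≃* ↥(Cfsg.Lie.chevG2.group F))) ∨
        Cfsg.Spor.IsoHS G ∨ Cfsg.Spor.IsoRu G)) := by
  obtain ⟨-, -, h⟩ := main hFT hE hl hR H T L hL
  rcases h with ⟨h1, h2⟩ | ⟨h1, h2⟩ | ⟨h1, h2⟩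
  · exact Or.inl ⟨alt_six h1, h2⟩
  · exact Or.inr (Or.inl ⟨h1, h2⟩)
  · exact Or.inr (Or.inr ⟨⟨ZMod 2, inferInstance, inferInstance, by rw [ZMod.card], h1⟩, h2⟩)

/-- **S1841** -/
theorem s1841 (hFT : Top.FT.{u}) (hE : IsOfEvenCharacteristic G) (hl : IsOnQTKEList G) (hR : InResidualCase G)
    (H : Hyp G) (T : Sylow 2 G) (L : Subgroup G) (hL : L ∈ calLf (T : Subgroup G))
    (h6 : Nonempty ((↥L ⧸ Cfsg.twoZCore ↥L) ≃* ↥(alternatingGroup (Fin 6)))) :
    (∃ (F : Type) (_ : Field F) (_ : Fintype F), Fintype.card F = 2 ∧ Nonempty (G ≃* Cfsg.PSp 3 F)) ∨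
      (∃ (F : Type) (_ : Field F) (_ : Fintype F), Fintype.card F = 9 ∧ Nonempty (G ≃* Cfsg.PSU 4 F 3)) := by
  obtain ⟨-, -, h⟩ := main hFT hE hl hR H T L hL
  obtain ⟨e6⟩ := h6
  have hc : Nat.card (↥L ⧸ Cfsg.twoZCore ↥L) = 360 := (Nat.card_congr e6.toEquiv).trans card_alt_six
  rcases h with ⟨-, h2⟩ | ⟨h1, -⟩ | ⟨h1, -⟩
  · exact h2
  · exfalso
    obtain ⟨e⟩ := alt_five h1
    rw [Nat.card_congr e.toEquiv, card_alt_five] at hc
    norm_num at hc
  · exfalso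
    obtain ⟨e⟩ := l3 h1
    rw [Nat.card_congr e.toEquiv, card_l3] at hc
    norm_num at hc

/-- **S1843** -/
theorem s1843 (hFT : Top.FT.{u}) (hE : IsOfEvenCharacteristic G) (hl : IsOnQTKEList G) (hR : InResidualCase G)
    (H : Hyp G) (T : Sylow 2 G) (K : Subgroup G) (hK : K ∈ calLf (T : Subgroup G)) :
    (Nonempty ((↥K ⧸ Cfsg.pCore 2 ↥K) ≃* ↥(alternatingGroup (Fin 5))) ∨
      (∃ (F : Type) (_ : Field F) (_ : Fintype F), Fintype.card F = 2 ∧
        Nonempty ((↥K ⧸ Cfsg.pCore 2 ↥K) ≃* Matrix.ProjectiveSpecialLinearGroup (Fin 3) F)) ∨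
      Nonempty ((↥K ⧸ Cfsg.pCore 2 ↥K) ≃* ↥(alternatingGroup (Fin 6))) ∨ Cfsg.IsHatA6 (↥K ⧸ Cfsg.pCore 2 ↥K) ∨
      (∃ (F : Type) (_ : Field F) (_ : Fintype F), Fintype.card F = 9 ∧
        Nonempty ((↥K ⧸ Cfsg.pCore 2 ↥K) ≃* Cfsg.PSU 3 F 3))) ∧
    (T : Subgroup G) ≤ Subgroup.normalizer (K : Set G) ∧ K ∈ Cfsg.calLfMax (T : Subgroup G) := by
  obtain ⟨h1, h2, h⟩ := main hFT hE hl hR H T K hK
  refine ⟨?_, h1, h2⟩
  rcases h with ⟨h3, -⟩ | ⟨h3, -⟩ | ⟨h3, -⟩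
  · exact Or.inr (Or.inr (Or.inl h3))
  · exact Or.inl h3
  · exact Or.inr (Or.inl ⟨ZMod 2, inferInstance, inferInstance, by rw [ZMod.card], h3⟩)

end

end Cfsg.Agent.H5.ResidEnd
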