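import Cfsg.Agent.H5.ResidEnd
import Cfsg.Agent.H5.MaxOf
import Cfsg.Agent.H1.SpSix
import Cfsg.Agent.H4.U43.Row
import Cfsg.Agent.H4.RowTits

/-!
# The residual case: the rows (helper5)
-/

set_option autoImplicit false

namespace Cfsg.Agent.H5.ResidInst

open Subgroup Cfsg Cfsg.Agent.H5.Resid Cfsg.Agent.H4.LfTrans

universe u v

variable {G : Type u} [Group G] [Finite G]

theorem card_psl_three {F : Type} [Field F] [Fintype F] (hF : Fintype.card F = 2) :
    Nat.card (Matrix.ProjectiveSpecialLinearGroup (Fin 3) F) = 168 := by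
  have h := S0243.result (F := F) hF 3 (by norm_num)
  rw [Fin.prod_univ_three] at h
  norm_num at h
  exact h

/-- `L₃(2)` over different fields -/
theorem psl_equiv {F : Type} [Field F] [Fintype F] (hF : Fintype.card F = 2) :
    Nonempty (Matrix.ProjectiveSpecialLinearGroup (Fin 3) F ≃* Matrix.ProjectiveSpecialLinearGroup (Fin 3) (ZMod 2)) := by
  have : IsSimpleGroup (Matrix.ProjectiveSpecialLinearGroup (Fin 3) F) := S0249.result 3 le_rfl
  have : Finite (Matrix.ProjectiveSpecialLinearGroup (Fin 3) F) :=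
    Nat.finite_of_card_ne_zero (by rw [card_psl_three hF]; norm_num)
  exact PerfGL4.psl_of_card (card_psl_three hF) (by rw [ZMod.card])

/-- **The row `Sp₆(2)`.** -/
theorem sp62 (h : Sp62 G) : LfRow G (fun L => IsAlt 6 L ∨ IsL3 L) := by
  obtain ⟨F, _, _, hF, ⟨e⟩⟩ := h
  have : CharP F 2 := charP_of_card_eq_prime hF
  obtain ⟨e3⟩ := psl_equiv hF
  have key : ∀ (T : Sylow 2 G), ∀ L ∈ calL (T : Subgroup G), (T : Subgroup G) ≤ normalizer (L : Set G) ∧
      (IsAlt 6 L ∨ IsL3 L) := by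
    intro T L hL
    obtain ⟨h1, i, ⟨f⟩⟩ := H1.SpSix.row_spSix hF e T L hL
    refine ⟨h1, ?_⟩
    cases i
    · exact Or.inl ⟨f⟩
    · exact Or.inr ⟨f.trans e3⟩
  have hc : ∀ L : Subgroup G, (IsAlt 6 L ∨ IsL3 L) → Nat.card (↥L ⧸ pCore 2 ↥L) = 360 ∨ Nat.card (↥L ⧸ pCore 2 ↥L) = 168 := by
    rintro L (h | h) <;> obtain ⟨f⟩ := h
    · exact Or.inl ((Nat.card_congr f.toEquiv).trans ResidEnd.card_alt_six)
    · exact Or.inr ((Nat.card_congr f.toEquiv).trans ResidEnd.card_l3)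
  intro T L hL
  obtain ⟨h1, h2⟩ := key T L hL.1
  refine ⟨h1, ⟨MaxOf.mem_calLMax T hL.1 h1 fun K hK hLK hd => ?_, hL.2⟩, h2⟩
  rcases hc L h2 with h3 | h3 <;> rcases hc K (key T K hK).2 with h4 | h4 <;> rw [h3, h4] at hd ⊢ <;> norm_num at hd

/-- **The row `U₄(3)`.** -/
theorem u43 (hFT : Top.FT.{0}) (hE : IsOfEvenCharacteristic G) (h : U43 G) : LfRow G (IsAlt 6) := by
  obtain ⟨F, _, _, hF, ⟨e⟩⟩ := h
  intro T L hL
  obtain ⟨h1, h2, h3, -⟩ := H4.U43.u43 hE hFT hF e T L hL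
  exact ⟨h1, h2, h3⟩

/-- **All rows but `³D₄(2)`.** -/
theorem hyp (hFT : Top.FT.{0}) (hE : IsOfEvenCharacteristic G) (h8 : D42 G → NoLf G) : Hyp G where
  sp62 := sp62
  u43 := u43 hFT hE
  d42 := h8
  tits := fun h => H4.RowTits.tits h

end Cfsg.Agent.H5.ResidInst
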